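/-
Every even permutation of at least five letters is a product `a * a'` of two permutations of the
same even cycle type containing two transpositions.
-/
import Mathlib

set_option linter.unusedSectionVars false
set_option autoImplicit false

namespace Cfsg.Agent.DoubleComm

open Equiv Equiv.Perm

theorem cycleType_sumCongr {α β : Type*} [Fintype α] [DecidableEq α] [Fintype β] [DecidableEq β]
    (σ : Perm α) (τ : Perm β) :
    (Perm.sumCongr σ τ).cycleType = σ.cycleType + τ.cycleType := by
  have h1 : Perm.sumCongr σ (1 : Perm β) =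
      σ.extendDomain (Equiv.ofInjective (Sum.inl : α → α ⊕ β) Sum.inl_injective) := by
    refine Equiv.ext fun x => ?_
    rcases x with x | x
    · exact (Perm.extendDomain_apply_image σ
        (Equiv.ofInjective (Sum.inl : α → α ⊕ β) Sum.inl_injective) x).symm
    · exact (Perm.extendDomain_apply_not_subtype σ
        (Equiv.ofInjective (Sum.inl : α → α ⊕ β) Sum.inl_injective)
        (by rintro ⟨y, hy⟩; exact Sum.inl_ne_inr hy)).symm
  have h2 : Perm.sumCongr (1 : Perm α) τ =
      τ.extendDomain (Equiv.ofInjective (Sum.inr : β → α ⊕ β) Sum.inr_injective) := by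
    refine Equiv.ext fun x => ?_
    rcases x with x | x
    · exact (Perm.extendDomain_apply_not_subtype τ
        (Equiv.ofInjective (Sum.inr : β → α ⊕ β) Sum.inr_injective)
        (by rintro ⟨y, hy⟩; exact Sum.inr_ne_inl hy)).symm
    · exact (Perm.extendDomain_apply_image τ
        (Equiv.ofInjective (Sum.inr : β → α ⊕ β) Sum.inr_injective) x).symm
  have h3 : Perm.sumCongr σ τ = Perm.sumCongr σ (1 : Perm β) * Perm.sumCongr (1 : Perm α) τ := by
    rw [Perm.sumCongr_mul, mul_one, one_mul]
  have hd : Perm.Disjoint (Perm.sumCongr σ (1 : Perm β)) (Perm.sumCongr (1 : Perm α) τ) := by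
    intro x
    rcases x with x | x
    · exact Or.inr rfl
    · exact Or.inl rfl
  rw [h3, hd.cycleType_mul, h1, h2, cycleType_extendDomain, cycleType_extendDomain]

theorem cycleType_permCongr {α β : Type*} [Fintype α] [DecidableEq α] [Fintype β] [DecidableEq β]
    (e : α ≃ β) (σ : Perm α) : (e.permCongr σ).cycleType = σ.cycleType := by
  have : e.permCongr σ = σ.extendDomain
      (e.trans (Equiv.subtypeUnivEquiv (p := fun _ : β => True) fun _ => trivial).symm) := by
    refine Equiv.ext fun x => ?_
    rw [Perm.extendDomain_apply_subtype _ _ trivial]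
    rfl
  rw [this, cycleType_extendDomain]

/-- `M` is the cycle type of a product of permutations of cycle types `A`, `A'` on `k` letters. -/
def Real (M A A' : Multiset ℕ) (k : ℕ) : Prop :=
  ∃ a a' : Perm (Fin k), a.cycleType = A ∧ a'.cycleType = A' ∧ (a * a').cycleType = M

theorem Real.zero (k : ℕ) : Real 0 0 0 k := ⟨1, 1, by simp, by simp, by simp⟩

theorem Real.symm {M A A' : Multiset ℕ} {k : ℕ} (h : Real M A A' k) : Real M A' A k := by
  obtain ⟨a, a', ha, ha', hM⟩ := h
  refine ⟨a'⁻¹, a⁻¹, by rw [cycleType_inv, ha'], by rw [cycleType_inv, ha], ?_⟩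
  rw [← mul_inv_rev, cycleType_inv, hM]

theorem Real.add {M A A' N B B' : Multiset ℕ} {k l : ℕ} (h : Real M A A' k) (h' : Real N B B' l) :
    Real (M + N) (A + B) (A' + B') (k + l) := by
  obtain ⟨a, a', ha, ha', hM⟩ := h
  obtain ⟨b, b', hb, hb', hN⟩ := h'
  refine ⟨finSumFinEquiv.permCongr (Perm.sumCongr a b),
    finSumFinEquiv.permCongr (Perm.sumCongr a' b'), ?_, ?_, ?_⟩
  · rw [cycleType_permCongr, cycleType_sumCongr, ha, hb]
  · rw [cycleType_permCongr, cycleType_sumCongr, ha', hb']
  · rw [← hM, ← hN, ← cycleType_sumCongr, ← Perm.sumCongr_mul,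
      ← cycleType_permCongr finSumFinEquiv (_ * _)]
    congr 1
    ext x
    simp

/-- A single cycle on all letters, with a fixed point of the second factor. -/
def Cyc (L : ℕ) (A A' : Multiset ℕ) : Prop :=
  ∃ (a a' : Perm (Fin L)) (v : Fin L), a' v = v ∧ a.cycleType = A ∧ a'.cycleType = A' ∧
    (a * a').IsCycle ∧ (a * a').support = Finset.univ

theorem Cyc.real {L : ℕ} {A A' : Multiset ℕ} (h : Cyc L A A') : Real {L} A A' L := by
  obtain ⟨a, a', v, -, ha, ha', hc, hs⟩ := h
  exact ⟨a, a', ha, ha', by rw [hc.cycleType, hs]; simp⟩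

/-- Lengthening a cycle by two letters. -/
theorem isCycle_extend {α : Type*} [Fintype α] [DecidableEq α] {c : Perm α} (hc : c.IsCycle)
    {v u : α} (hv : c v ≠ v) (hu : c u = u) :
    (c * Equiv.swap v u).IsCycle ∧ (c * Equiv.swap v u).support = insert u c.support := by
  set d := c * Equiv.swap v u with hd
  have huv : u ≠ v := fun e => hv (e ▸ hu)
  have dv : d v = u := by simp [hd, hu]
  have du : d u = c v := by simp [hd]
  have dx : ∀ x, x ≠ v → x ≠ u → d x = c x := fun x h1 h2 => by
    simp [hd, Equiv.swap_apply_of_ne_of_ne h1 h2]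
  have hsupp : d.support = insert u c.support := by
    ext x
    simp only [Finset.mem_insert, mem_support]
    by_cases h1 : x = u
    · subst h1
      refine iff_of_true ?_ (Or.inl rfl)
      rw [du]
      intro e
      exact huv (c.injective (hu.trans e.symm))
    · by_cases h2 : x = v
      · subst h2
        exact iff_of_true (by rw [dv]; exact huv) (Or.inr hv)
      · rw [dx x h2 h1]
        exact ⟨Or.inr, fun h => h.resolve_left h1⟩
  refine ⟨⟨v, by rw [dv]; exact huv, fun y hy => ?_⟩, hsupp⟩
  have key : ∀ i : ℕ, d.SameCycle v ((c ^ i) v) := by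
    intro i
    induction i with
    | zero => exact SameCycle.refl _ _
    | succ i ih =>
      rw [pow_succ', Perm.mul_apply]
      by_cases h : (c ^ i) v = v
      · rw [h, ← du, sameCycle_apply_right, ← dv, sameCycle_apply_right]
      · have hne : (c ^ i) v ≠ u := by
          intro e
          have hm : (c ^ i) v ∈ c.support := by
            rw [pow_apply_mem_support, mem_support]; exact hv
          rw [e, mem_support] at hm
          exact hm hu
        rw [← dx _ h hne, sameCycle_apply_right]
        exact ih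
  by_cases hyu : y = u
  · rw [hyu, ← dv, sameCycle_apply_right]
  · have hy' : y ∈ c.support := by
      have : y ∈ d.support := mem_support.mpr hy
      rw [hsupp, Finset.mem_insert] at this
      exact this.resolve_left hyu
    obtain ⟨i, hi⟩ := (hc.sameCycle hv (mem_support.mp hy')).exists_nat_pow_eq
    exact hi ▸ key i

theorem Cyc.step {L : ℕ} {A A' : Multiset ℕ} (h : Cyc L A A') :
    Cyc (L + 2) (A + {2}) (A' + {2}) := by
  obtain ⟨a, a', v, hv, ha, ha', hc, hs⟩ := h
  let u : Fin L ⊕ Fin 2 := Sum.inr 0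
  let w : Fin L ⊕ Fin 2 := Sum.inr 1
  set A₁ : Perm (Fin L ⊕ Fin 2) := Perm.sumCongr a (1 : Perm (Fin 2)) with hA₁
  set B₁ : Perm (Fin L ⊕ Fin 2) := Perm.sumCongr a' (1 : Perm (Fin 2)) with hB₁
  set C₁ : Perm (Fin L ⊕ Fin 2) := Perm.sumCongr (a * a') (1 : Perm (Fin 2)) with hC₁
  have hAB : A₁ * B₁ = C₁ := by rw [hA₁, hB₁, hC₁, Perm.sumCongr_mul, mul_one]
  have hCc : C₁.IsCycle := by
    rw [← Perm.card_cycleType_eq_one, hC₁, cycleType_sumCongr, cycleType_one, add_zero,
      Perm.card_cycleType_eq_one]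
    exact hc
  have hv' : (a * a') v ≠ v := Perm.mem_support.mp (hs ▸ Finset.mem_univ v)
  have hCv : C₁ (Sum.inl v) ≠ Sum.inl v := fun e => hv' (Sum.inl_injective (show Sum.inl ((a * a') v) = Sum.inl v from e))
  have e1 := isCycle_extend hCc (v := Sum.inl v) (u := u) hCv rfl
  set C₂ := C₁ * Equiv.swap (Sum.inl v) u
  have hC₂v : C₂ (Sum.inl v) ≠ Sum.inl v := by simp [C₂, hC₁, u]
  have hC₂w : C₂ w = w := by
    simp only [C₂, Perm.mul_apply]
    rw [Equiv.swap_apply_of_ne_of_ne (by simp [w]) (by simp [u, w])]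
    rfl
  have e2 := isCycle_extend e1.1 (v := Sum.inl v) (u := w) hC₂v hC₂w
  have hprod : (A₁ * Equiv.swap u w) * (B₁ * Equiv.swap (Sum.inl v) u) =
      C₂ * Equiv.swap (Sum.inl v) w := by
    have hcomm : Equiv.swap u w * B₁ = B₁ * Equiv.swap u w := by
      refine Equiv.ext fun x => ?_
      rcases x with x | x
      · simp [hB₁, u, w, Equiv.swap_apply_of_ne_of_ne]
      · fin_cases x <;> simp [hB₁, u, w]
    have hsw : Equiv.swap u w * Equiv.swap (Sum.inl v) u =
        Equiv.swap (Sum.inl v) u * Equiv.swap (Sum.inl v) w := by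
      refine Equiv.ext fun x => ?_
      rcases x with x | x
      · by_cases hx : x = v
        · subst hx; simp [u, w, Equiv.swap_apply_of_ne_of_ne]
        · simp [u, w, Equiv.swap_apply_of_ne_of_ne, hx]
      · fin_cases x <;> simp [u, w, Equiv.swap_apply_of_ne_of_ne]
    calc (A₁ * Equiv.swap u w) * (B₁ * Equiv.swap (Sum.inl v) u)
        = A₁ * (Equiv.swap u w * B₁) * Equiv.swap (Sum.inl v) u := by group
      _ = A₁ * B₁ * (Equiv.swap u w * Equiv.swap (Sum.inl v) u) := by rw [hcomm]; group
      _ = C₂ * Equiv.swap (Sum.inl v) w := by rw [hAB, hsw]; simp only [C₂]; group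
  set e : Fin L ⊕ Fin 2 ≃ Fin (L + 2) := finSumFinEquiv
  have hswap : ∀ x y : Fin L ⊕ Fin 2, x ≠ y → (Equiv.swap x y).cycleType = {2} := fun x y hxy => by
    rw [(Perm.isCycle_swap hxy).cycleType, Perm.card_support_swap hxy]
  refine ⟨e.permCongr (A₁ * Equiv.swap u w), e.permCongr (B₁ * Equiv.swap (Sum.inl v) u), e w,
    ?_, ?_, ?_, ?_⟩
  · simp [hB₁, u, w, Equiv.swap_apply_of_ne_of_ne]
  · have hd : Perm.Disjoint A₁ (Equiv.swap u w) := by
      intro x
      rcases x with x | x
      · exact Or.inr (Equiv.swap_apply_of_ne_of_ne (by simp [u]) (by simp [w]))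
      · exact Or.inl rfl
    rw [cycleType_permCongr, hd.cycleType_mul, hA₁, cycleType_sumCongr, cycleType_one, add_zero, ha,
      hswap u w (by simp [u, w])]
  · have hd : Perm.Disjoint B₁ (Equiv.swap (Sum.inl v) u) := by
      intro x
      rcases x with x | x
      · by_cases hx : x = v
        · left; simp [hB₁, hx, hv]
        · exact Or.inr (Equiv.swap_apply_of_ne_of_ne (by simp [hx]) (by simp [u]))
      · exact Or.inl rfl
    rw [cycleType_permCongr, hd.cycleType_mul, hB₁, cycleType_sumCongr, cycleType_one, add_zero, ha',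
      hswap _ u (by simp [u])]
  · have hmul : e.permCongr (A₁ * Equiv.swap u w) * e.permCongr (B₁ * Equiv.swap (Sum.inl v) u) =
        e.permCongr (C₂ * Equiv.swap (Sum.inl v) w) := by
      rw [← hprod]; ext x; simp
    rw [hmul]
    have hsupp : (C₂ * Equiv.swap (Sum.inl v) w).support = Finset.univ := by
      rw [e2.2, e1.2, Finset.eq_univ_iff_forall]
      rintro (x | x)
      · refine Finset.mem_insert_of_mem (Finset.mem_insert_of_mem ?_)
        rw [Perm.mem_support]
        have := Perm.mem_support.mp (hs ▸ Finset.mem_univ x)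
        exact fun e => this (Sum.inl_injective (show Sum.inl ((a * a') x) = Sum.inl x from e))
      · fin_cases x <;> simp [u, w]
    constructor
    · rw [← Perm.card_cycleType_eq_one, cycleType_permCongr, Perm.card_cycleType_eq_one]
      exact e2.1
    · rw [Finset.eq_univ_iff_forall]
      intro x
      rw [Perm.mem_support]
      have h := Perm.mem_support.mp (hsupp ▸ Finset.mem_univ (e.symm x))
      intro hx
      exact h (e.injective (by simpa [Equiv.permCongr_apply] using hx))

theorem Cyc.iterate {L : ℕ} {A A' : Multiset ℕ} (h : Cyc L A A') :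
    ∀ i : ℕ, Cyc (L + 2 * i) (A + Multiset.replicate i 2) (A' + Multiset.replicate i 2)
  | 0 => by simpa using h
  | i + 1 => by
    have := (Cyc.iterate h i).step
    rw [Nat.mul_succ, ← add_assoc, Multiset.replicate_succ, ← Multiset.singleton_add,
      add_comm ({2} : Multiset ℕ) (Multiset.replicate i 2), ← add_assoc, ← add_assoc]
    exact this

set_option maxRecDepth 10000 in
theorem cyc_two : Cyc 2 {2} 0 :=
  ⟨Equiv.swap 0 1, 1, 0, rfl, by decide +kernel, by decide +kernel,
    Perm.card_cycleType_eq_one.mp (by decide +kernel), by decide +kernel⟩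

theorem cyc_three : Cyc 3 {2} {2} :=
  ⟨Equiv.swap 1 2, Equiv.swap 0 1, 2, by decide +kernel, by decide +kernel, by decide +kernel,
    Perm.card_cycleType_eq_one.mp (by decide +kernel), by decide +kernel⟩

theorem cyc_five : Cyc 5 {4} {4} :=
  ⟨[1, 2, 4, 3].formPerm, [0, 3, 2, 4].formPerm, 1, by decide +kernel, by decide +kernel,
    by decide +kernel, Perm.card_cycleType_eq_one.mp (by decide +kernel), by decide +kernel⟩

theorem cyc_six : Cyc 6 ({4} + {2}) {4} :=
  ⟨Equiv.swap 0 1 * [2, 3, 5, 4].formPerm, [1, 4, 3, 5].formPerm, 0, by decide +kernel,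
    by decide +kernel, by decide +kernel, Perm.card_cycleType_eq_one.mp (by decide +kernel),
    by decide +kernel⟩

theorem real_three : Real {3} {3} {3} 3 :=
  ⟨[0, 2, 1].formPerm, [0, 2, 1].formPerm, by decide +kernel, by decide +kernel, by decide +kernel⟩

theorem real_fixed : Real 0 {2} {2} 2 :=
  ⟨Equiv.swap 0 1, Equiv.swap 0 1, by decide +kernel, by decide +kernel, by decide +kernel⟩

theorem real_two_two : Real {2, 2} {2, 2} {2, 2} 4 :=
  ⟨Equiv.swap 0 2 * Equiv.swap 1 3, Equiv.swap 0 3 * Equiv.swap 1 2, by decide +kernel,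
    by decide +kernel, by decide +kernel⟩

theorem real_four_four : Real {4, 4} (Multiset.replicate 4 2) (Multiset.replicate 4 2) 8 :=
  ⟨Equiv.swap 0 4 * Equiv.swap 1 7 * Equiv.swap 2 6 * Equiv.swap 3 5,
    Equiv.swap 0 7 * Equiv.swap 1 6 * Equiv.swap 2 5 * Equiv.swap 3 4, by decide +kernel,
    by decide +kernel, by decide +kernel⟩

theorem real_seven : Real {7} ({3} + Multiset.replicate 2 2) ({3} + Multiset.replicate 2 2) 7 :=
  ⟨Equiv.swap 0 2 * [1, 5, 4].formPerm * Equiv.swap 3 6,
    [0, 4, 1].formPerm * Equiv.swap 2 6 * Equiv.swap 3 5, by decide +kernel, by decide +kernel,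
    by decide +kernel⟩

theorem real_six_two : Real {6, 2} ({3} + Multiset.replicate 2 2) ({3} + Multiset.replicate 2 2) 8 :=
  ⟨Equiv.swap 1 2 * [3, 6, 5].formPerm * Equiv.swap 4 7,
    [0, 2, 5].formPerm * Equiv.swap 3 7 * Equiv.swap 4 6, by decide +kernel, by decide +kernel,
    by decide +kernel⟩

theorem real_odd {L : ℕ} (hL : 3 ≤ L) (h : Odd L) :
    Real {L} (Multiset.replicate (L / 2) 2) (Multiset.replicate (L / 2) 2) L := by
  obtain ⟨t, rfl⟩ := h
  obtain ⟨i, rfl⟩ : ∃ i, t = i + 1 := ⟨t - 1, by omega⟩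
  have := (cyc_three.iterate i).real
  rw [show 2 * (i + 1) + 1 = 3 + 2 * i by ring, show (3 + 2 * i) / 2 = i + 1 by omega,
    Multiset.replicate_succ, ← Multiset.singleton_add]
  exact this

theorem real_even {L : ℕ} (hL : 2 ≤ L) (h : Even L) :
    Real {L} (Multiset.replicate (L / 2) 2) (Multiset.replicate (L / 2 - 1) 2) L := by
  obtain ⟨t, rfl⟩ := h
  obtain ⟨i, rfl⟩ : ∃ i, t = i + 1 := ⟨t - 1, by omega⟩
  have := (cyc_two.iterate i).real
  rw [zero_add] at this
  rw [show i + 1 + (i + 1) = 2 + 2 * i by ring, show (2 + 2 * i) / 2 = i + 1 by omega,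
    Nat.add_sub_cancel, Multiset.replicate_succ, ← Multiset.singleton_add]
  exact this

/-- The standard decomposition into involutions. -/
theorem real_standard : ∀ (c : ℕ) (M : Multiset ℕ), M.card = c → (∀ L ∈ M, 2 ≤ L) →
    Even (M.sum + M.card) →
    Real M (Multiset.replicate ((M.sum - M.card) / 2) 2)
      (Multiset.replicate ((M.sum - M.card) / 2) 2) M.sum := by
  intro c
  induction c using Nat.strong_induction_on with
  | _ c ih =>
    intro M hc hM heven
    rcases Multiset.empty_or_exists_mem M with rfl | ⟨L, hL⟩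
    · simpa using Real.zero 0
    by_cases hodd : ∃ L ∈ M, Odd L
    · obtain ⟨L, hL, hLodd⟩ := hodd
      obtain ⟨N, rfl⟩ := Multiset.exists_cons_of_mem hL
      rw [Multiset.card_cons] at hc
      rw [Multiset.sum_cons, Multiset.card_cons] at heven ⊢
      have hN : ∀ K ∈ N, 2 ≤ K := fun K hK => hM K (Multiset.mem_cons_of_mem hK)
      have hle := Multiset.card_nsmul_le_sum (a := 2) hN
      rw [smul_eq_mul] at hle
      have hL2 := hM L hL
      obtain ⟨t, rfl⟩ := hLodd
      obtain ⟨s, hs⟩ := heven
      have hev : Even (N.sum + N.card) := ⟨s - t - 1, by omega⟩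
      have h := (real_odd (L := 2 * t + 1) (by omega) ⟨t, rfl⟩).add (ih _ (by omega) N rfl hN hev)
      rw [← Multiset.replicate_add, Multiset.singleton_add] at h
      rw [show (2 * t + 1 + N.sum - (N.card + 1)) / 2 =
        (2 * t + 1) / 2 + (N.sum - N.card) / 2 by omega]
      exact h
    · push Not at hodd
      obtain ⟨N, rfl⟩ := Multiset.exists_cons_of_mem hL
      have hLe := hodd L hL
      have hL2 := hM L hL
      rw [Nat.not_odd_iff_even] at hLe
      obtain ⟨t, rfl⟩ := hLe
      have hN0 : N ≠ 0 := by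
        rintro rfl
        obtain ⟨s, hs⟩ := heven
        simp at hs
        omega
      obtain ⟨K, hK⟩ := Multiset.exists_mem_of_ne_zero hN0
      obtain ⟨P, rfl⟩ := Multiset.exists_cons_of_mem hK
      have hKe := hodd K (Multiset.mem_cons_of_mem hK)
      have hK2 := hM K (Multiset.mem_cons_of_mem hK)
      rw [Nat.not_odd_iff_even] at hKe
      obtain ⟨r, rfl⟩ := hKe
      simp only [Multiset.card_cons] at hc
      rw [Multiset.sum_cons, Multiset.sum_cons, Multiset.card_cons, Multiset.card_cons] at heven ⊢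
      have hP : ∀ K ∈ P, 2 ≤ K :=
        fun K hK => hM K (Multiset.mem_cons_of_mem (Multiset.mem_cons_of_mem hK))
      have hle := Multiset.card_nsmul_le_sum (a := 2) hP
      rw [smul_eq_mul] at hle
      obtain ⟨s, hs⟩ := heven
      have hev : Even (P.sum + P.card) := ⟨s - t - r - 1, by omega⟩
      have h := ((real_even (L := t + t) hL2 ⟨t, rfl⟩).add
        (real_even (L := r + r) hK2 ⟨r, rfl⟩).symm).add (ih _ (by omega) P rfl hP hev)
      rw [← Multiset.replicate_add, ← Multiset.replicate_add, ← Multiset.replicate_add,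
        ← Multiset.replicate_add, Multiset.singleton_add, Multiset.cons_add, Multiset.singleton_add]
        at h
      rw [show (t + t + (r + r + P.sum) - (P.card + 1 + 1)) / 2 =
        (t + t) / 2 + ((r + r) / 2 - 1) + (P.sum - P.card) / 2 by omega, ← add_assoc (t + t)]
      convert h using 2
      omega

/-- The type to be found. -/
def Good (A : Multiset ℕ) : Prop := 2 ≤ A.count 2 ∧ Even (A.sum + A.card)

theorem good_replicate {j : ℕ} (hj : 2 ≤ j) (he : Even j) : Good (Multiset.replicate j 2) := by
  refine ⟨by rwa [Multiset.count_replicate_self], ?_⟩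
  obtain ⟨s, rfl⟩ := he
  rw [Multiset.sum_replicate, Multiset.card_replicate, smul_eq_mul]
  exact ⟨3 * s, by ring⟩

theorem good_add {L j : ℕ} (hL : L ≠ 2) (hj : 2 ≤ j) (he : Even (L + 1 + j)) :
    Good ({L} + Multiset.replicate j 2) := by
  refine ⟨by simp [Multiset.count_singleton, Ne.symm hL, hj], ?_⟩
  rw [Multiset.sum_add, Multiset.card_add, Multiset.sum_singleton, Multiset.card_singleton,
    Multiset.sum_replicate, Multiset.card_replicate, smul_eq_mul]
  obtain ⟨s, hs⟩ := he
  exact ⟨s + j, by omega⟩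

theorem real_main (n : ℕ) (hn : 5 ≤ n) (M : Multiset ℕ) (hM : ∀ L ∈ M, 2 ≤ L) (hsum : M.sum ≤ n)
    (heven : Even (M.sum + M.card)) : ∃ A k, Good A ∧ k ≤ n ∧ Real M A A k := by
  have hle := Multiset.card_nsmul_le_sum (a := 2) hM
  rw [smul_eq_mul] at hle
  obtain ⟨s, hs⟩ := heven
  set J := (M.sum - M.card) / 2 with hJ
  rcases Nat.even_or_odd J with hJe | hJo
  · by_cases hJ0 : J = 0
    · have hM0 : M = 0 := Multiset.card_eq_zero.mp (by omega)
      subst hM0
      exact ⟨{2} + {2}, 4, ⟨by decide, ⟨3, rfl⟩⟩, by omega, real_fixed.add real_fixed⟩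
    · refine ⟨_, M.sum, good_replicate ?_ hJe, hsum, real_standard _ M rfl hM ⟨s, hs⟩⟩
      obtain ⟨j, hj⟩ := hJe
      omega
  obtain ⟨j, hj⟩ := hJo
  by_cases hfix : M.sum + 2 ≤ n
  · have h := (real_standard _ M rfl hM ⟨s, hs⟩).add real_fixed
    rw [add_zero, show ({2} : Multiset ℕ) = Multiset.replicate 1 2 from rfl,
      ← Multiset.replicate_add] at h
    exact ⟨_, M.sum + 2, good_replicate (by omega) ⟨j + 1, by omega⟩, hfix, h⟩
  by_cases h3 : 3 ∈ M
  · obtain ⟨N, rfl⟩ := Multiset.exists_cons_of_mem h3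
    rw [Multiset.sum_cons, Multiset.card_cons] at *
    have hN : ∀ K ∈ N, 2 ≤ K := fun K hK => hM K (Multiset.mem_cons_of_mem hK)
    have hleN := Multiset.card_nsmul_le_sum (a := 2) hN
    rw [smul_eq_mul] at hleN
    have h := real_three.add (real_standard _ N rfl hN ⟨s - 2, by omega⟩)
    rw [Multiset.singleton_add] at h
    exact ⟨_, _, good_add (by omega) (by omega) ⟨(4 + (N.sum - N.card) / 2) / 2, by omega⟩,
      hsum, h⟩
  by_cases h22 : 2 ≤ M.count 2
  · obtain ⟨N, rfl⟩ := Multiset.le_iff_exists_add.mp (Multiset.le_count_iff_replicate_le.mp h22)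
    simp only [Multiset.sum_add, Multiset.card_add, Multiset.sum_replicate,
      Multiset.card_replicate, smul_eq_mul] at *
    have hN : ∀ K ∈ N, 2 ≤ K := fun K hK => hM K (Multiset.mem_add.mpr (Or.inr hK))
    have hleN := Multiset.card_nsmul_le_sum (a := 2) hN
    rw [smul_eq_mul] at hleN
    have h := real_two_two.add (real_standard _ N rfl hN ⟨s - 3, by omega⟩)
    rw [show ({2, 2} : Multiset ℕ) = Multiset.replicate 2 2 from rfl,
      ← Multiset.replicate_add] at h
    exact ⟨_, _, good_replicate (by omega) ⟨j + 1, by omega⟩, hsum, h⟩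
  by_cases h44 : 2 ≤ M.count 4
  · obtain ⟨N, rfl⟩ := Multiset.le_iff_exists_add.mp (Multiset.le_count_iff_replicate_le.mp h44)
    simp only [Multiset.sum_add, Multiset.card_add, Multiset.sum_replicate,
      Multiset.card_replicate, smul_eq_mul] at *
    have hN : ∀ K ∈ N, 2 ≤ K := fun K hK => hM K (Multiset.mem_add.mpr (Or.inr hK))
    have hleN := Multiset.card_nsmul_le_sum (a := 2) hN
    rw [smul_eq_mul] at hleN
    have h := real_four_four.add (real_standard _ N rfl hN ⟨s - 5, by omega⟩)
    rw [show ({4, 4} : Multiset ℕ) = Multiset.replicate 2 4 from rfl,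
      ← Multiset.replicate_add] at h
    exact ⟨_, _, good_replicate (by omega) ⟨j + 1, by omega⟩, hsum, h⟩
  by_cases hodd : ∃ L ∈ M, Odd L
  · obtain ⟨L, hL, t, ht⟩ := hodd
    obtain ⟨N, rfl⟩ := Multiset.exists_cons_of_mem hL
    have hL2 := hM L hL
    have hL3 : L ≠ 3 := fun e => h3 (e ▸ hL)
    rw [Multiset.sum_cons, Multiset.card_cons] at *
    have hN : ∀ K ∈ N, 2 ≤ K := fun K hK => hM K (Multiset.mem_cons_of_mem hK)
    have hleN := Multiset.card_nsmul_le_sum (a := 2) hN
    rw [smul_eq_mul] at hleN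
    by_cases hJ3 : (L - 5) / 2 + (N.sum - N.card) / 2 < 2
    · -- only the seven cycle remains
      have hNc : N.card ≤ 2 := by omega
      have hcases : L = 7 ∧ N = 0 := by
        rcases Nat.eq_zero_or_pos N.card with h0 | h0
        · obtain rfl := Multiset.card_eq_zero.mp h0
          simp at *
          omega
        exfalso
        by_cases h1 : N.card = 1
        · obtain ⟨K, rfl⟩ := Multiset.card_eq_one.mp h1
          simp at *
          omega
        · obtain ⟨K, K', rfl⟩ := Multiset.card_eq_two.mp (by omega : N.card = 2)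
          have hK := hN K (by simp)
          have hK' := hN K' (by simp)
          simp at hJ3 hs hj hJ hleN
          obtain rfl : K = 2 := by omega
          obtain rfl : K' = 2 := by omega
          apply h22
          rw [Multiset.count_cons, Multiset.insert_eq_cons, Multiset.count_cons, Multiset.count_singleton]
          simp
      obtain ⟨rfl, rfl⟩ := hcases
      exact ⟨_, 7, good_add (by omega) le_rfl ⟨3, rfl⟩, by simpa using hsum, real_seven⟩
    · have h := ((cyc_five.iterate ((L - 5) / 2)).real).add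
        (real_standard _ N rfl hN ⟨s - t - 1, by omega⟩)
      rw [show 5 + 2 * ((L - 5) / 2) = L by omega, Multiset.singleton_add, add_assoc,
        ← Multiset.replicate_add] at h
      exact ⟨_, _, good_add (by omega) (by omega)
        ⟨(5 + ((L - 5) / 2 + (N.sum - N.card) / 2)) / 2, by omega⟩, hsum, h⟩
  · push Not at hodd
    have hbig : ∃ L ∈ M, 6 ≤ L := by
      by_contra hcon
      push Not at hcon
      have heq : M = Multiset.replicate (M.count 2) 2 + Multiset.replicate (M.count 4) 4 := by
        ext a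
        rw [Multiset.count_add, Multiset.count_replicate, Multiset.count_replicate]
        by_cases ha : a ∈ M
        · have := hM a ha
          have := hcon a ha
          have := Nat.not_odd_iff_even.mp (hodd a ha)
          rcases this with ⟨r, rfl⟩
          obtain h | h : r + r = 2 ∨ r + r = 4 := by omega
          · rw [h]; simp
          · rw [h]; simp
        · rw [Multiset.count_eq_zero.mpr ha]
          by_cases h2 : a = 2
          · subst h2; simp [Multiset.count_eq_zero.mpr ha]
          by_cases h4 : a = 4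
          · subst h4; simp [Multiset.count_eq_zero.mpr ha]
          simp [Ne.symm h2, Ne.symm h4]
      have e1 := congrArg Multiset.sum heq
      have e2 := congrArg Multiset.card heq
      simp only [Multiset.sum_add, Multiset.card_add, Multiset.sum_replicate,
        Multiset.card_replicate, smul_eq_mul] at e1 e2
      have hJ' : (M.sum - M.card) / 2 = 2 * j + 1 := hj
      omega
    obtain ⟨L, hL, hL6⟩ := hbig
    obtain ⟨N, rfl⟩ := Multiset.exists_cons_of_mem hL
    obtain ⟨t, rfl⟩ := Nat.not_odd_iff_even.mp (hodd L hL)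
    have hN0 : N ≠ 0 := by
      rintro rfl
      simp at hs
      omega
    obtain ⟨K, hK⟩ := Multiset.exists_mem_of_ne_zero hN0
    obtain ⟨P, rfl⟩ := Multiset.exists_cons_of_mem hK
    have hK2 := hM K (Multiset.mem_cons_of_mem hK)
    obtain ⟨r, rfl⟩ := Nat.not_odd_iff_even.mp (hodd K (Multiset.mem_cons_of_mem hK))
    rw [Multiset.sum_cons, Multiset.sum_cons, Multiset.card_cons, Multiset.card_cons] at *
    have hP : ∀ K ∈ P, 2 ≤ K :=
      fun K hK => hM K (Multiset.mem_cons_of_mem (Multiset.mem_cons_of_mem hK))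
    have hleP := Multiset.card_nsmul_le_sum (a := 2) hP
    rw [smul_eq_mul] at hleP
    by_cases hJ3 : (t - 3) + r + (P.sum - P.card) / 2 < 2
    · obtain rfl : P = 0 := Multiset.card_eq_zero.mp (by omega)
      obtain rfl : t = 3 := by omega
      obtain rfl : r = 1 := by omega
      exact ⟨_, 8, good_add (by omega) le_rfl ⟨3, rfl⟩, by simpa using hsum, real_six_two⟩
    · have h := (((cyc_six.iterate (t - 3)).real).add
        (real_even (L := r + r) hK2 ⟨r, rfl⟩).symm).add
        (real_standard _ P rfl hP ⟨s - t - r - 1, by omega⟩)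
      rw [show 6 + 2 * (t - 3) = t + t by omega, Multiset.singleton_add, Multiset.cons_add,
        Multiset.singleton_add, show ({2} : Multiset ℕ) = Multiset.replicate 1 2 from rfl] at h
      simp only [add_assoc, ← Multiset.replicate_add] at h
      rw [show 1 + (t - 3 + ((r + r) / 2 - 1 + (P.sum - P.card) / 2)) =
          t - 3 + r + (P.sum - P.card) / 2 by omega,
        show t - 3 + ((r + r) / 2 + (P.sum - P.card) / 2) =
          t - 3 + r + (P.sum - P.card) / 2 by omega] at h
      exact ⟨_, _, good_add (by omega) (by omega) ⟨(j + 2), by omega⟩, by omega, h⟩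

/-- Every even permutation of at least five letters is the commutator of an even permutation
with two transpositions in its cycle decomposition and an even permutation. -/
theorem exists_commutator_form {n : ℕ} (hn : 5 ≤ n) {σ : Perm (Fin n)} (hσ : Perm.sign σ = 1) :
    ∃ a b : Perm (Fin n), Perm.sign a = 1 ∧ Perm.sign b = 1 ∧ 2 ≤ a.cycleType.count 2 ∧
      a * b * a⁻¹ * b⁻¹ = σ := by
  have hsum : σ.cycleType.sum ≤ n := by
    rw [σ.sum_cycleType]
    simpa using σ.support.card_le_univ
  have heven : Even (σ.cycleType.sum + σ.cycleType.card) := by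
    rw [sign_of_cycleType] at hσ
    exact (neg_one_pow_eq_one_iff_even (by decide)).mp hσ
  obtain ⟨A, k, ⟨hA2, hAe⟩, hk, h⟩ :=
    real_main n hn σ.cycleType (fun L hL => two_le_of_mem_cycleType hL) hsum heven
  have h' := h.add (Real.zero (n - k))
  rw [add_zero, add_zero, Nat.add_sub_cancel' hk] at h'
  obtain ⟨x, x', hx, hx', hprod⟩ := h'
  obtain ⟨g, hg⟩ := isConj_iff.mp (isConj_iff_cycleType_eq.mpr hprod)
  set a := g * x * g⁻¹ with ha
  set a' := g * x' * g⁻¹ with ha'
  have haa : a * a' = σ := by rw [← hg, ha, ha']; group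
  have hta : a.cycleType = A := by rw [ha, cycleType_conj, hx]
  have hta' : a'.cycleType = A := by rw [ha', cycleType_conj, hx']
  obtain ⟨b, hb⟩ := isConj_iff.mp (isConj_iff_cycleType_eq.mpr
    (show a⁻¹.cycleType = a'.cycleType by rw [cycleType_inv, hta, hta']))
  have hsign : Perm.sign a = 1 := by
    rw [sign_of_cycleType, hta]
    exact Even.neg_one_pow hAe
  have hmem : 2 ∈ a.cycleType := by
    rw [← Multiset.count_pos, hta]; omega
  rw [cycleType_def] at hmem
  obtain ⟨c, hc, hc2⟩ := Multiset.mem_map.mp hmem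
  have hcs : Perm.sign c = -1 := by
    obtain ⟨x, y, hxy, rfl⟩ := card_support_eq_two.mp hc2
    exact sign_swap hxy
  rcases Int.units_eq_one_or (Perm.sign b) with hbs | hbs
  · refine ⟨a, b, hsign, hbs, hta ▸ hA2, ?_⟩
    rw [← haa, ← hb]; group
  · refine ⟨a, b * c, hsign, by rw [map_mul, hbs, hcs]; rfl, hta ▸ hA2, ?_⟩
    have hcomm : Commute c a⁻¹ := (self_mem_cycle_factors_commute hc).inv_right
    rw [← haa, ← hb, mul_inv_rev]
    calc a * (b * c) * a⁻¹ * (c⁻¹ * b⁻¹) = a * b * (c * a⁻¹) * c⁻¹ * b⁻¹ := by group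
      _ = a * (b * a⁻¹ * b⁻¹) := by rw [hcomm.eq]; group

end Cfsg.Agent.DoubleComm
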