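/-
Perfect double covers of alternating groups: lifts of double transpositions have order four, and
every element is a commutator.
-/
import Cfsg.Agent.DoubleComm.Combi
import Cfsg.Agent.Core.AltPresentation

set_option linter.unusedSectionVars false
set_option linter.style.haveILetI false
set_option autoImplicit false

namespace Cfsg.Agent.DoubleComm

open Equiv Equiv.Perm
open scoped commutatorElement

theorem cycleType_two_swaps {α : Type*} [Fintype α] [DecidableEq α] {a b c d : α} (hab : a ≠ b)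
    (hcd : c ≠ d) (hac : a ≠ c) (had : a ≠ d) (hbc : b ≠ c) (hbd : b ≠ d) :
    (Equiv.swap a b * Equiv.swap c d).cycleType = {2, 2} := by
  have hd : Perm.Disjoint (Equiv.swap a b) (Equiv.swap c d) := by
    rw [disjoint_iff_disjoint_support, support_swap hab, support_swap hcd]
    simp [hac.symm, had.symm, hbc.symm, hbd.symm]
  rw [hd.cycleType_mul, (isCycle_swap hab).cycleType, (isCycle_swap hcd).cycleType,
    card_support_swap hab, card_support_swap hcd]
  rfl

variable {G : Type*} [Group G] [Finite G] {n : ℕ}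

/-- The data of a double cover. -/
structure Cover (π : G →* alternatingGroup (Fin n)) (z : G) : Prop where
  surj : Function.Surjective π
  central : ∀ g : G, Commute z g
  sq : z * z = 1
  ne : z ≠ 1
  map_z : π z = 1
  ker : ∀ g : G, π g = 1 → g = 1 ∨ g = z
  perfect : commutator G = ⊤

variable {π : G →* alternatingGroup (Fin n)} {z : G}

theorem Cover.eq_or {g h : G} (D : Cover π z) (e : π g = π h) : h = g ∨ h = g * z := by
  rcases D.ker (g⁻¹ * h) (by rw [map_mul, map_inv, e, inv_mul_cancel]) with h1 | h1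
  · left; exact (inv_mul_eq_one.mp h1).symm
  · right; rw [← h1, mul_inv_cancel_left]

theorem Cover.cube_lift (D : Cover π z) {σ : alternatingGroup (Fin n)} (h : σ ^ 3 = 1) :
    ∃ X : G, π X = σ ∧ X ^ 3 = 1 := by
  obtain ⟨Y, rfl⟩ := D.surj σ
  refine ⟨Y ^ 4, ?_, ?_⟩
  · rw [map_pow, pow_succ, h, one_mul]
  · have h3 : π (Y ^ 3) = 1 := by rw [map_pow, h]
    rw [← pow_mul, show 4 * 3 = 3 * 4 from rfl, pow_mul]
    rcases D.ker _ h3 with e | e <;> rw [e]
    · exact one_pow 4
    · rw [show z ^ 4 = (z * z) * (z * z) by simp [pow_succ, mul_assoc], D.sq, one_mul]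

theorem Cover.sq_eq_of_image (D : Cover π z) {g h : G} (e : π g = π h) : g * g = h * h := by
  rcases D.eq_or e with rfl | rfl
  · rfl
  · calc g * g = g * g * (z * z) := by rw [D.sq, mul_one]
      _ = g * (g * z) * z := by group
      _ = g * (z * g) * z := by rw [(D.central g).eq]
      _ = g * z * (g * z) := by group

/-- Lifts of double transpositions square to `z`. -/
theorem Cover.sq_double_transposition (hn : 5 ≤ n) (D : Cover π z) {T : G}
    (hT : ((π T : alternatingGroup (Fin n)) : Perm (Fin n)).cycleType = {2, 2}) : T * T = z := by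
  have hker : π (T * T) = 1 := by
    apply Subtype.ext
    have h := (Perm.lcm_cycleType ((π T : alternatingGroup (Fin n)) : Perm (Fin n))).symm
    rw [hT] at h
    have h2 : orderOf ((π T : alternatingGroup (Fin n)) : Perm (Fin n)) = 2 := by rw [h]; rfl
    have := pow_orderOf_eq_one ((π T : alternatingGroup (Fin n)) : Perm (Fin n))
    rw [h2, pow_two] at this
    simpa using this
  refine (D.ker _ hker).resolve_left fun hTT => ?_
  -- all lifts of double transpositions are involutions
  have hinv : ∀ U : G, ((π U : alternatingGroup (Fin n)) : Perm (Fin n)).cycleType = {2, 2} →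
      U * U = 1 := by
    intro U hU
    obtain ⟨g, hg⟩ := isConj_iff.mp (isConj_iff_cycleType_eq.mpr (hT.trans hU.symm))
    obtain ⟨g', hg', hgs⟩ : ∃ g' : Perm (Fin n), g' * (π T : alternatingGroup (Fin n)) * g'⁻¹ =
        (π U : alternatingGroup (Fin n)) ∧ Perm.sign g' = 1 := by
      rcases Int.units_eq_one_or (Perm.sign g) with h | h
      · exact ⟨g, hg, h⟩
      have hmem : 2 ∈ ((π T : alternatingGroup (Fin n)) : Perm (Fin n)).cycleType := by rw [hT]; simp
      rw [cycleType_def] at hmem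
      obtain ⟨c, hc, hc2⟩ := Multiset.mem_map.mp hmem
      obtain ⟨x, y, hxy, rfl⟩ := card_support_eq_two.mp hc2
      refine ⟨g * Equiv.swap x y, ?_, by rw [map_mul, h, sign_swap hxy]; rfl⟩
      have hcom := self_mem_cycle_factors_commute (Finset.mem_val.mp hc)
      rw [← hg, mul_inv_rev, mul_assoc g (Equiv.swap x y), hcom.eq]
      group
    obtain ⟨K, hK⟩ := D.surj ⟨g', mem_alternatingGroup.mpr hgs⟩
    have himg : π U = π (K * T * K⁻¹) := by
      apply Subtype.ext
      rw [map_mul, map_mul, map_inv, hK]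
      exact hg'.symm
    rw [D.sq_eq_of_image himg, show K * T * K⁻¹ * (K * T * K⁻¹) = K * (T * T) * K⁻¹ by group, hTT,
      mul_one, mul_inv_cancel]
  obtain ⟨k, rfl⟩ : ∃ k, n = k + 3 := ⟨n - 3, by omega⟩
  -- the images of the generators
  let x : Fin (k + 1) → alternatingGroup (Fin (k + 3)) := Core.AltPres.img
  have hrel := fun r hr => Core.AltPres.img_rels (k := k) (r := r) hr
  have hdt : ∀ i : Fin (k + 1), 1 ≤ i.val →
      ((x i : alternatingGroup (Fin (k + 3))) : Perm (Fin (k + 3))).cycleType = {2, 2} := by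
    intro i hi
    refine cycleType_two_swaps ?_ ?_ ?_ ?_ ?_ ?_ <;>
      · simp only [ne_eq, Fin.ext_iff, Fin.val_castSucc, Fin.val_succ, Fin.val_zero]
        omega
  have hfar : ∀ i j : Fin (k + 1), i.val + 1 < j.val →
      ((x i * x j : alternatingGroup (Fin (k + 3))) : Perm (Fin (k + 3))).cycleType = {2, 2} := by
    intro i j hij
    show (Core.AltPres.adjSwap 0 * Core.AltPres.adjSwap i.succ *
      (Core.AltPres.adjSwap 0 * Core.AltPres.adjSwap j.succ)).cycleType = _
    by_cases h : i.val = 0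
    · obtain rfl : i = 0 := Fin.ext h
      rw [Core.AltPres.img_prod_one (by omega)]
      refine cycleType_two_swaps ?_ ?_ ?_ ?_ ?_ ?_ <;>
        · simp only [ne_eq, Fin.ext_iff, Fin.val_castSucc, Fin.val_succ, Fin.val_zero] at *
          omega
    · rw [Core.AltPres.img_prod (by omega)]
      refine cycleType_two_swaps ?_ ?_ ?_ ?_ ?_ ?_ <;>
        · simp only [ne_eq, Fin.ext_iff, Fin.val_castSucc, Fin.val_succ] at *
          omega
  -- coherent lifts
  classical
  choose lift hlift using D.surj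
  obtain ⟨X0, hX0, hX03⟩ := D.cube_lift (σ := x 0) (by
    have := hrel (FreeGroup.of 0 ^ 3) (Or.inl (Or.inl (Or.inl ⟨0, rfl, rfl⟩)))
    simpa [map_pow] using this)
  let X : ℕ → G := fun i => Nat.rec X0
    (fun i prev => if h : i + 1 < k + 1 then
      (if (prev * lift (x ⟨i + 1, h⟩)) ^ 3 = 1 then lift (x ⟨i + 1, h⟩) else lift (x ⟨i + 1, h⟩) * z)
      else 1) i
  have hXs : ∀ (i : ℕ) (h : i + 1 < k + 1), X (i + 1) =
      if (X i * lift (x ⟨i + 1, h⟩)) ^ 3 = 1 then lift (x ⟨i + 1, h⟩) else lift (x ⟨i + 1, h⟩) * z :=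
    fun i h => dif_pos h
  have hXπ : ∀ i : Fin (k + 1), π (X i.val) = x i := by
    rintro ⟨i, hi⟩
    rcases i with - | i
    · exact hX0
    · rw [hXs i hi]
      split
      · exact hlift _
      · rw [map_mul, hlift, D.map_z, mul_one]
  have hrels : ∀ r ∈ ({g : FreeGroup (Fin (k + 1)) | ∃ i : Fin (k + 1), i.val = 0 ∧ g = FreeGroup.of i ^ 3} ∪
       {g | ∃ i : Fin (k + 1), 1 ≤ i.val ∧ g = FreeGroup.of i ^ 2} ∪
       {g | ∃ i j : Fin (k + 1), j.val = i.val + 1 ∧ g = (FreeGroup.of i * FreeGroup.of j) ^ 3} ∪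
       {g | ∃ i j : Fin (k + 1), i.val + 1 < j.val ∧ g = (FreeGroup.of i * FreeGroup.of j) ^ 2}),
      FreeGroup.lift (fun i : Fin (k + 1) => X i.val) r = 1 := by
    rintro r (((⟨i, hi, rfl⟩ | ⟨i, hi, rfl⟩) | ⟨i, j, hij, rfl⟩) | ⟨i, j, hij, rfl⟩) <;>
      simp only [map_pow, map_mul, FreeGroup.lift_apply_of]
    · rw [hi]; exact hX03
    · rw [pow_two]
      refine hinv _ ?_
      rw [hXπ]; exact hdt i hi
    · obtain ⟨j, hj⟩ := j
      simp only at hij
      subst hij
      show (X i.val * X (i.val + 1)) ^ 3 = 1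
      rw [hXs _ hj]
      split
      · assumption
      · rename_i hne
        have hπ : π ((X i.val * lift (x ⟨i.val + 1, hj⟩)) ^ 3) = 1 := by
          rw [map_pow, map_mul, hXπ, hlift]
          have := hrel ((FreeGroup.of i * FreeGroup.of ⟨i.val + 1, hj⟩) ^ 3)
            (Or.inl (Or.inr ⟨i, ⟨i.val + 1, hj⟩, rfl, rfl⟩))
          simpa [map_pow, map_mul] using this
        have he := (D.ker _ hπ).resolve_left hne
        rw [← mul_assoc, ((D.central _).symm).mul_pow, he,
          show z ^ 3 = z * z * z by simp [pow_succ], D.sq, one_mul, D.sq]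
    · rw [pow_two]
      refine hinv _ ?_
      rw [map_mul, hXπ, hXπ]
      exact hfar i j hij
  obtain ⟨e⟩ := Core.AltPres.presented_iso k
  haveI : Finite (PresentedGroup
      ({g : FreeGroup (Fin (k + 1)) | ∃ i : Fin (k + 1), i.val = 0 ∧ g = FreeGroup.of i ^ 3} ∪
       {g | ∃ i : Fin (k + 1), 1 ≤ i.val ∧ g = FreeGroup.of i ^ 2} ∪
       {g | ∃ i j : Fin (k + 1), j.val = i.val + 1 ∧ g = (FreeGroup.of i * FreeGroup.of j) ^ 3} ∪
       {g | ∃ i j : Fin (k + 1), i.val + 1 < j.val ∧ g = (FreeGroup.of i * FreeGroup.of j) ^ 2})) :=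
    Finite.of_equiv _ e.toEquiv.symm
  set s := PresentedGroup.toGroup (f := fun i : Fin (k + 1) => X i.val) hrels
  set H := s.range
  have hHcard : Nat.card H ≤ Nat.card (alternatingGroup (Fin (k + 3))) := by
    rw [← Nat.card_congr e.toEquiv]
    exact Nat.card_le_card_of_surjective s.rangeRestrict s.rangeRestrict_surjective
  have himg : ∀ i, x i ∈ H.map π := fun i =>
    ⟨_, ⟨PresentedGroup.of i, rfl⟩, by rw [PresentedGroup.toGroup.of]; exact hXπ i⟩
  have hHmap : H.map π = ⊤ := by
    set S : Subgroup (Perm (Fin (k + 3))) :=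
      (H.map π).map (alternatingGroup (Fin (k + 3))).subtype
    have himg' : ∀ i : Fin (k + 1), Core.AltPres.adjSwap 0 * Core.AltPres.adjSwap i.succ ∈ S :=
      fun i => ⟨x i, himg i, rfl⟩
    have hcover : ∀ g : Perm (Fin (k + 3)), g ∈ S ∨ Core.AltPres.adjSwap 0 * g ∈ S := by
      intro g
      have hg : g ∈ Submonoid.closure
          (Set.range fun i : Fin (k + 2) => Equiv.swap i.castSucc i.succ) := by
        rw [Equiv.Perm.mclosure_swap_castSucc_succ]; trivial
      induction hg using Submonoid.closure_induction_left with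
      | one => exact Or.inl (one_mem _)
      | mul_left u hu v _ hv =>
        obtain ⟨i, rfl⟩ := hu
        show Core.AltPres.adjSwap i * v ∈ S ∨ _
        induction i using Fin.cases with
        | zero =>
          rcases hv with hv | hv
          · exact Or.inr (by
              show Core.AltPres.adjSwap 0 * (Core.AltPres.adjSwap 0 * v) ∈ S
              rw [← mul_assoc, Core.AltPres.adjSwap_sq, one_mul]; exact hv)
          · exact Or.inl hv
        | succ i =>
          rcases hv with hv | hv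
          · exact Or.inr (by
              show Core.AltPres.adjSwap 0 * (Core.AltPres.adjSwap i.succ * v) ∈ S
              rw [← mul_assoc]; exact S.mul_mem (himg' i) hv)
          · refine Or.inl ?_
            have h := S.mul_mem (S.inv_mem (himg' i)) hv
            rwa [mul_inv_rev, inv_eq_of_mul_eq_one_right (Core.AltPres.adjSwap_sq i.succ),
              inv_eq_of_mul_eq_one_right (Core.AltPres.adjSwap_sq 0), mul_assoc,
              ← mul_assoc (Core.AltPres.adjSwap 0), Core.AltPres.adjSwap_sq, one_mul] at h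
    rw [eq_top_iff]
    intro g _
    rcases hcover g with ⟨a, ha, hag⟩ | ⟨a, -, hag⟩
    · rwa [← Subtype.ext (show (a : Perm (Fin (k + 3))) = g from hag)]
    · exfalso
      have h1 : Perm.sign (a : Perm (Fin (k + 3))) = 1 := mem_alternatingGroup.mp a.2
      rw [show (a : Perm (Fin (k + 3))) = Core.AltPres.adjSwap 0 * (g : Perm (Fin (k + 3))) from hag,
        map_mul, Core.AltPres.adjSwap, sign_swap (Fin.castSucc_lt_succ).ne,
        mem_alternatingGroup.mp g.2] at h1
      exact absurd h1 (by decide)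
  -- `H` is a proper subgroup, so it cannot cover a perfect central extension
  have hmem : ∀ g : G, g ∈ H ∨ g * z ∈ H := by
    intro g
    obtain ⟨h, hh, he⟩ : π g ∈ H.map π := hHmap ▸ Subgroup.mem_top _
    rcases D.eq_or he with rfl | rfl
    · exact Or.inl hh
    · refine Or.inr ?_
      rwa [mul_assoc, D.sq, mul_one]
  have hcomm : commutator G ≤ H := by
    rw [commutator_def, Subgroup.commutator_le]
    intro a _ b _
    have key : ∀ a b : G, ⁅a * z, b⁆ = ⁅a, b⁆ ∧ ⁅a, b * z⁆ = ⁅a, b⁆ := fun a b => by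
      constructor
      · calc ⁅a * z, b⁆ = a * (z * b * z⁻¹) * a⁻¹ * b⁻¹ := by rw [commutatorElement_def]; group
          _ = ⁅a, b⁆ := by rw [(D.central b).eq, commutatorElement_def]; group
      · calc ⁅a, b * z⁆ = a * b * (z * a⁻¹ * z⁻¹) * b⁻¹ := by rw [commutatorElement_def]; group
          _ = ⁅a, b⁆ := by rw [(D.central a⁻¹).eq, commutatorElement_def]; group
    obtain ⟨a', ha', hab⟩ : ∃ a' ∈ H, ⁅a', b⁆ = ⁅a, b⁆ := by
      rcases hmem a with ha | ha
      · exact ⟨a, ha, rfl⟩
      · exact ⟨a * z, ha, (key a b).1⟩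
    obtain ⟨b', hb', hbb⟩ : ∃ b' ∈ H, ⁅a', b'⁆ = ⁅a', b⁆ := by
      rcases hmem b with hb | hb
      · exact ⟨b, hb, rfl⟩
      · exact ⟨b * z, hb, (key a' b).2⟩
    rw [← hab, ← hbb, commutatorElement_def]
    exact mul_mem (mul_mem (mul_mem ha' hb') (inv_mem ha')) (inv_mem hb')
  have htop : H = ⊤ := top_le_iff.mp (D.perfect ▸ hcomm)
  rw [htop, Subgroup.card_top] at hHcard
  exact D.ne ((Nat.bijective_iff_surjective_and_card π).mpr
    ⟨D.surj, le_antisymm hHcard (Nat.card_le_card_of_surjective π D.surj)⟩ |>.1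
    (D.map_z.trans π.map_one.symm))

/-- Every element of a perfect double cover is a commutator. -/
theorem Cover.exists_commutator (hn : 5 ≤ n) (D : Cover π z) (g : G) :
    ∃ a b : G, a * b * a⁻¹ * b⁻¹ = g := by
  classical
  obtain ⟨a, b, has, hbs, ha2, hab⟩ :=
    exists_commutator_form hn (σ := (π g : Perm (Fin n))) (mem_alternatingGroup.mp (π g).2)
  -- two transpositions of `a`
  obtain ⟨c₁, hc₁, c₂, hc₂, hc12, hs1, hs2⟩ : ∃ c₁ ∈ a.cycleFactorsFinset,
      ∃ c₂ ∈ a.cycleFactorsFinset, c₁ ≠ c₂ ∧ c₁.support.card = 2 ∧ c₂.support.card = 2 := by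
    rw [cycleType_def, Multiset.count_map, ← Finset.filter_val] at ha2
    obtain ⟨c₁, h₁, c₂, h₂, hne⟩ := Finset.one_lt_card.mp (show 1 < _ from ha2)
    rw [Finset.mem_filter] at h₁ h₂
    exact ⟨c₁, h₁.1, c₂, h₂.1, hne, h₁.2.symm, h₂.2.symm⟩
  have hdis := cycleFactorsFinset_pairwise_disjoint a hc₁ hc₂ hc12
  obtain ⟨x₁, x₂, h12, rfl⟩ := card_support_eq_two.mp hs1
  obtain ⟨x₃, x₄, h34, rfl⟩ := card_support_eq_two.mp hs2
  have hd' := disjoint_iff_disjoint_support.mp hdis
  rw [support_swap h12, support_swap h34] at hd'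
  simp only [Finset.disjoint_insert_left, Finset.mem_insert, Finset.mem_singleton,
    Finset.disjoint_singleton_left, not_or] at hd'
  obtain ⟨⟨h13, h14⟩, h23, h24⟩ := hd'
  have ha1 := (mem_cycleFactorsFinset_iff.mp hc₁).2
  have ha3 := (mem_cycleFactorsFinset_iff.mp hc₂).2
  have e1 : a x₁ = x₂ := by rw [← ha1 x₁ (by simp [h12]), swap_apply_left]
  have e2 : a x₂ = x₁ := by rw [← ha1 x₂ (by simp [h12]), swap_apply_right]
  have e3 : a x₃ = x₄ := by rw [← ha3 x₃ (by simp [h34]), swap_apply_left]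
  have e4 : a x₄ = x₃ := by rw [← ha3 x₄ (by simp [h34]), swap_apply_right]
  set t := Equiv.swap x₁ x₂ * Equiv.swap x₃ x₄ with ht
  set c := Equiv.swap x₁ x₃ * Equiv.swap x₂ x₄ with hc
  set r := t * a with hr
  have htsign : Perm.sign t = 1 := by rw [ht, map_mul, sign_swap h12, sign_swap h34]; rfl
  have hrfix : ∀ x, x = x₁ ∨ x = x₂ ∨ x = x₃ ∨ x = x₄ → r x = x := by
    rintro x (rfl | rfl | rfl | rfl) <;>
      simp [hr, ht, e1, e2, e3, e4, swap_apply_of_ne_of_ne, h12, h34, h13, h14, h23, h24,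
        Ne.symm h12, Ne.symm h34, Ne.symm h13, Ne.symm h14, Ne.symm h23, Ne.symm h24]
  obtain ⟨T, hT⟩ := D.surj ⟨t, mem_alternatingGroup.mpr htsign⟩
  obtain ⟨C, hC⟩ := D.surj ⟨c, mem_alternatingGroup.mpr (by
    rw [hc, map_mul, sign_swap h13, sign_swap h24]; rfl)⟩
  have hTT : T * T = z := D.sq_double_transposition hn (by
    rw [hT]; exact cycleType_two_swaps h12 h34 h13 h14 h23 h24)
  have hCC : C * C = z := D.sq_double_transposition hn (by
    rw [hC]; exact cycleType_two_swaps h13 h24 h12 h14 (Ne.symm h23) h34)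
  have htc : t * c = Equiv.swap x₁ x₄ * Equiv.swap x₂ x₃ := by
    refine Equiv.ext fun x => ?_
    simp only [ht, hc, Perm.mul_apply]
    by_cases a1 : x = x₁
    · subst a1
      simp [swap_apply_of_ne_of_ne, h12, h34, h13, h14, h23, h24, Ne.symm h12, Ne.symm h34,
        Ne.symm h13, Ne.symm h14, Ne.symm h23, Ne.symm h24]
    by_cases a2 : x = x₂
    · subst a2
      simp [swap_apply_of_ne_of_ne, h12, h34, h13, h14, h23, h24, Ne.symm h12, Ne.symm h34,
        Ne.symm h13, Ne.symm h14, Ne.symm h23, Ne.symm h24]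
    by_cases a3 : x = x₃
    · subst a3
      simp [swap_apply_of_ne_of_ne, h12, h34, h13, h14, h23, h24, Ne.symm h12, Ne.symm h34,
        Ne.symm h13, Ne.symm h14, Ne.symm h23, Ne.symm h24]
    by_cases a4 : x = x₄
    · subst a4
      simp [swap_apply_of_ne_of_ne, h12, h34, h13, h14, h23, h24, Ne.symm h12, Ne.symm h34,
        Ne.symm h13, Ne.symm h14, Ne.symm h23, Ne.symm h24]
    simp [swap_apply_of_ne_of_ne, a1, a2, a3, a4]
  have hTC : T * C * (T * C) = z := D.sq_double_transposition hn (by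
    rw [map_mul, hT, hC]
    show (t * c).cycleType = _
    rw [htc]
    exact cycleType_two_swaps h14 h23 h12 h13 (Ne.symm h24) (Ne.symm h34))
  have hanti : T * C * T⁻¹ * C⁻¹ = z := by
    have hTi : T⁻¹ = T * z := inv_eq_of_mul_eq_one_right (by rw [← mul_assoc, hTT, D.sq])
    have hCi : C⁻¹ = C * z := inv_eq_of_mul_eq_one_right (by rw [← mul_assoc, hCC, D.sq])
    rw [hTi, hCi]
    calc T * C * (T * z) * (C * z) = T * C * T * (z * C) * z := by group
      _ = T * C * (T * C) * (z * z) := by rw [(D.central C).eq]; group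
      _ = z := by rw [hTC, D.sq, mul_one]
  -- the rest of `a` has lift commuting with `C`
  set K : Subgroup (Perm (Fin n)) :=
    ((Subgroup.centralizer ({C} : Set G)).map π).map (alternatingGroup (Fin n)).subtype
  let p : Fin n → Prop := fun x => x ≠ x₁ ∧ x ≠ x₂ ∧ x ≠ x₃ ∧ x ≠ x₄
  have h3K : ∀ u : Perm {x // p x}, u.IsThreeCycle → Perm.ofSubtype u ∈ K := by
    intro u hu
    set σ := Perm.ofSubtype u with hσ
    have hσs : Perm.sign σ = 1 := by rw [hσ, sign_ofSubtype, hu.sign]
    have hσ3 : σ ^ 3 = 1 := by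
      rw [hσ, ← map_pow, show u ^ 3 = 1 from hu.orderOf ▸ pow_orderOf_eq_one u, map_one]
    have hcσ : c * σ = σ * c := by
      refine Commute.eq (Perm.Disjoint.commute ?_)
      intro x
      by_cases hx : p x
      · left
        simp [hc, swap_apply_of_ne_of_ne, hx.1, hx.2.1, hx.2.2.1, hx.2.2.2]
      · exact Or.inr (ofSubtype_apply_of_not_mem u hx)
    obtain ⟨X, hX, hX3⟩ := D.cube_lift (σ := ⟨σ, mem_alternatingGroup.mpr hσs⟩) (Subtype.ext hσ3)
    refine ⟨π X, ⟨X, Subgroup.mem_centralizer_singleton_iff.mpr ?_, rfl⟩, by rw [hX]; rfl⟩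
    have hπ : π X = π (C * X * C⁻¹) := by
      apply Subtype.ext
      rw [map_mul, map_mul, map_inv, hX, hC]
      show σ = c * σ * c⁻¹
      rw [hcσ, mul_inv_cancel_right]
    rcases D.eq_or hπ with e | e
    · calc X * C = C * X * C⁻¹ * C := by rw [e]
        _ = C * X := by rw [inv_mul_cancel_right]
    · exfalso
      apply D.ne
      have h1 : (C * X * C⁻¹) ^ 3 = 1 := by
        rw [conj_pow, hX3, mul_one, mul_inv_cancel]
      rw [e, (D.central X).symm.mul_pow, hX3, one_mul,
        show z ^ 3 = z * z * z by simp [pow_succ], D.sq, one_mul] at h1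
      exact h1
  have hrK : r ∈ K := by
    have hmoved : ∀ x, r x ≠ x → p x := fun x hx =>
      ⟨fun e => hx (hrfix x (Or.inl e)), fun e => hx (hrfix x (Or.inr (Or.inl e))),
        fun e => hx (hrfix x (Or.inr (Or.inr (Or.inl e)))),
        fun e => hx (hrfix x (Or.inr (Or.inr (Or.inr e))))⟩
    have hiff : ∀ x, p (r x) ↔ p x := fun x => by
      by_cases hx : r x = x
      · rw [hx]
      · exact iff_of_true (hmoved _ fun e => hx (r.injective e)) (hmoved x hx)
    set u : Perm {x // p x} := r.subtypePerm hiff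
    have hur : Perm.ofSubtype u = r := ofSubtype_subtypePerm hiff hmoved
    have hu : u ∈ alternatingGroup {x // p x} := by
      rw [mem_alternatingGroup, ← sign_ofSubtype, hur, hr, map_mul, htsign, has, one_mul]
    have : alternatingGroup {x // p x} ≤ K.comap Perm.ofSubtype := by
      rw [← closure_three_cycles_eq_alternating, Subgroup.closure_le]
      exact fun u hu => h3K u hu
    rw [← hur]
    exact this hu
  obtain ⟨_, ⟨R, hR, rfl⟩, hRr⟩ := hrK
  have hCR : C * R = R * C := (Subgroup.mem_centralizer_singleton_iff.mp hR).symm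
  obtain ⟨B, hB⟩ := D.surj ⟨b, mem_alternatingGroup.mpr hbs⟩
  have htt : t * t = 1 := by
    have : ((π (T * T) : alternatingGroup (Fin n)) : Perm (Fin n)) = 1 := by rw [hTT, D.map_z]; rfl
    rw [map_mul, hT] at this
    exact this
  set A := T * R with hA
  have hπA : ((π A : alternatingGroup (Fin n)) : Perm (Fin n)) = a := by
    rw [hA, map_mul, hT]
    show t * (π R : Perm (Fin n)) = a
    rw [show ((π R : alternatingGroup (Fin n)) : Perm (Fin n)) = r from hRr, hr, ← mul_assoc, htt,
      one_mul]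
  have hAC : A * C * A⁻¹ * C⁻¹ = z := by
    calc A * C * A⁻¹ * C⁻¹ = T * (R * C) * R⁻¹ * T⁻¹ * C⁻¹ := by rw [hA]; group
      _ = T * C * T⁻¹ * C⁻¹ := by rw [← hCR]; group
      _ = z := hanti
  have hπ : π (A * B * A⁻¹ * B⁻¹) = π g := by
    apply Subtype.ext
    simp only [map_mul, map_inv, Subgroup.coe_mul, Subgroup.coe_inv, hπA, hB]
    exact hab
  rcases D.eq_or hπ with e | e
  · exact ⟨A, B, e.symm⟩
  · refine ⟨A, B * C, ?_⟩
    calc A * (B * C) * A⁻¹ * (B * C)⁻¹
        = A * B * A⁻¹ * (A * C * A⁻¹ * C⁻¹) * B⁻¹ := by group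
      _ = A * B * A⁻¹ * (z * B⁻¹) := by rw [hAC]; group
      _ = A * B * A⁻¹ * B⁻¹ * z := by rw [(D.central B⁻¹).eq]; group
      _ = g := e.symm

end Cfsg.Agent.DoubleComm
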